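import Cfsg.Agent.Lib.Helper35.Fi22Ord.X0.Chk0

namespace Cfsg.Agent.Lib.Helper35.Fi22Ord.X0

open Cfsg.Agent.Lib.Helper35

noncomputable def reach1 : ReachData Fi22a.pt 3509 [[1], [2], [3], [4], [5], [6], [7], [8]] 0 3159 where
  sl := sl1
  hsl := rfl
  ot := ot1
  big := 35
  hchk := q1u0
  hcnt := m1n0
theorem fix1 : ∀ s ∈ ([[2], [3], [4], [5], [6], [7], [8]] : List (List Nat)), pwalk Fi22a.pt s 0 = 0 := by decide +kernel
noncomputable def reach2 : ReachData Fi22a.pt 3509 [[2], [3], [4], [5], [6], [7], [8]] 1 288 where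
  sl := sl2
  hsl := rfl
  ot := ot2
  big := 22
  hchk := q2u0
  hcnt := m2n0
theorem fix2 : ∀ s ∈ ([[3], [4], [5], [6], [7], [8]] : List (List Nat)), pwalk Fi22a.pt s 1 = 1 := by decide +kernel
noncomputable def reach3 : ReachData Fi22a.pt 3509 [[3], [4], [5], [6], [7], [8]] 248 7 where
  sl := sl3
  hsl := rfl
  ot := ot3
  big := 7
  hchk := q3u0
  hcnt := m3n0
theorem fix3 : ∀ s ∈ ([[3], [4], [5], [7], [8]] : List (List Nat)), pwalk Fi22a.pt s 248 = 248 := by decide +kernel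
noncomputable def reach4 : ReachData Fi22a.pt 3509 [[3], [4], [5], [7], [8]] 154 6 where
  sl := sl4
  hsl := rfl
  ot := ot4
  big := 6
  hchk := q4u0
  hcnt := m4n0
theorem fix4 : ∀ s ∈ ([[3], [4], [7], [8]] : List (List Nat)), pwalk Fi22a.pt s 154 = 154 := by decide +kernel
noncomputable def reach5 : ReachData Fi22a.pt 3509 [[3], [4], [7], [8]] 88 5 where
  sl := sl5
  hsl := rfl
  ot := ot5
  big := 5
  hchk := q5u0
  hcnt := m5n0
theorem fix5 : ∀ s ∈ ([[3], [7], [8]] : List (List Nat)), pwalk Fi22a.pt s 88 = 88 := by decide +kernel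
noncomputable def reach6 : ReachData Fi22a.pt 3509 [[3], [7], [8]] 3 4 where
  sl := sl6
  hsl := rfl
  ot := ot6
  big := 4
  hchk := q6u0
  hcnt := m6n0
theorem fix6 : ∀ s ∈ ([[7], [8]] : List (List Nat)), pwalk Fi22a.pt s 3 = 3 := by decide +kernel
noncomputable def reach7 : ReachData Fi22a.pt 3509 [[7], [8]] 5 3 where
  sl := sl7
  hsl := rfl
  ot := ot7
  big := 3
  hchk := q7u0
  hcnt := m7n0
theorem fix7 : ∀ s ∈ ([[8]] : List (List Nat)), pwalk Fi22a.pt s 5 = 5 := by decide +kernel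
noncomputable def reach8 : ReachData Fi22a.pt 3509 [[8]] 9 2 where
  sl := sl8
  hsl := rfl
  ot := ot8
  big := 2
  hchk := q8u0
  hcnt := m8n0
theorem fix8 : ∀ s ∈ ([] : List (List Nat)), pwalk Fi22a.pt s 9 = 9 := by decide +kernel
theorem yfix0 : ∀ i, i < 3510 → pwalk Fi22a.pt yl0.W i = i := fun i hi => fix_of_leaves' [yl0] 3510 y0u2 yl0.W (by simp) i hi
theorem yfix1 : ∀ i, i < 3510 → pwalk Fi22a.pt yl1.W i = i := fun i hi => fix_of_leaves' [yl1] 3510 y1u6 yl1.W (by simp) i hi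

end Cfsg.Agent.Lib.Helper35.Fi22Ord.X0
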